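import Mathlib
import Cfsg.Prelude.Def_Transfer

/-!
# Project RUW (S3174, S3175): 2-groups of Rudvalis type

`T` a finite 2-group, `|T| ≥ 2^14`, `|Z₄(T)| = 16`, `W = C_T(Z₃(T))`, `|Φ(W)| ≤ 8`, and `Φ(W)` lies in
every subgroup of `W` of index `≤ 16`.

This file: the interface (definitions and package Props). No proofs here.
Notation: `Z i = Subgroup.upperCentralSeries T i`; `cg g p = p⁻¹ * (g * p * g⁻¹)` ("`(g - 1) p`").
-/

set_option autoImplicit false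

namespace Cfsg.Agent.Lib.Helper49.RUW

universe u

/-- `cg g p = p⁻¹ * (g * p * g⁻¹)`: the commutator "`(g - 1) p`". -/
def cg {T : Type u} [Group T] (g p : T) : T := p⁻¹ * (g * p * g⁻¹)

/-- A normal series `W ≤ X₁ ≤ X₂ ≤ T` with steps of index `≤ 2`, and coset representatives:
`X₁ = W ∪ W g₁`, `X₂ = X₁ ∪ X₁ g₂`, `T = X₂ ∪ X₂ g₃` (degenerate steps allowed, e.g. `g = 1`). -/
structure Series {T : Type u} [Group T] (W X₁ X₂ : Subgroup T) (g₁ g₂ g₃ : T) : Prop where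
  W1 : W ≤ X₁
  X12 : X₁ ≤ X₂
  Wn : W.Normal
  n1 : X₁.Normal
  n2 : X₂.Normal
  g1 : g₁ ∈ X₁
  g2 : g₂ ∈ X₂
  sq1 : g₁ * g₁ ∈ W
  sq2 : g₂ * g₂ ∈ X₁
  sq3 : g₃ * g₃ ∈ X₂
  cov1 : ∀ a ∈ X₁, a ∈ W ∨ a * g₁⁻¹ ∈ W
  cov2 : ∀ a ∈ X₂, a ∈ X₁ ∨ a * g₂⁻¹ ∈ X₁
  cov3 : ∀ t : T, t ∈ X₂ ∨ t * g₃⁻¹ ∈ X₂

/-- The chain of "fixed point subgroups modulo `Z`":
`P₁ = C_W(g₁ mod Z)`, `P₂ = C_{P₁}(g₂ mod Z)`, `P₃ = C_{P₂}(g₃ mod Z)`, with the counting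
inequalities `|P| |Z| ≤ |P'|²` and surjectivity of `p ↦ cg g p` (mod `Z`) in the equality case. -/
structure Chain {T : Type u} [Group T] (W X₂ Z : Subgroup T) (g₁ g₂ g₃ : T)
    (P₁ P₂ P₃ : Subgroup T) : Prop where
  m1 : ∀ p, p ∈ P₁ ↔ p ∈ W ∧ cg g₁ p ∈ Z
  m2 : ∀ p, p ∈ P₂ ↔ p ∈ P₁ ∧ cg g₂ p ∈ Z
  m3 : ∀ p, p ∈ P₃ ↔ p ∈ P₂ ∧ cg g₃ p ∈ Z
  i1 : ∀ p ∈ W, cg g₁ p ∈ P₁
  i2 : ∀ p ∈ P₁, cg g₂ p ∈ P₂
  c1 : Nat.card W * Nat.card Z ≤ Nat.card P₁ ^ 2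
  c2 : Nat.card P₁ * Nat.card Z ≤ Nat.card P₂ ^ 2
  c3 : Nat.card P₂ * Nat.card Z ≤ Nat.card P₃ ^ 2
  s1 : Nat.card W * Nat.card Z = Nat.card P₁ ^ 2 → ∀ q ∈ P₁, ∃ p ∈ W, (cg g₁ p)⁻¹ * q ∈ Z
  s2 : Nat.card P₁ * Nat.card Z = Nat.card P₂ ^ 2 → ∀ q ∈ P₂, ∃ p ∈ P₁, (cg g₂ p)⁻¹ * q ∈ Z
  fix2 : ∀ p ∈ P₂, ∀ a ∈ X₂, cg a p ∈ Z
  fixT : ∀ p ∈ P₃, ∀ t : T, cg t p ∈ Z

/-- Stage A facts (numerics). -/
structure FactsA {T : Type u} [Group T] (W : Subgroup T) : Prop where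
  cardT : Nat.card T = 2 ^ 14
  cardW : Nat.card W = 2 ^ 11
  Wn : W.Normal
  idx : W.index = 8
  c1 : Nat.card ↥(Subgroup.upperCentralSeries T 1) = 2
  c2 : Nat.card ↥(Subgroup.upperCentralSeries T 2) = 4
  c3 : Nat.card ↥(Subgroup.upperCentralSeries T 3) = 8
  c4 : Nat.card ↥(Subgroup.upperCentralSeries T 4) = 16
  frat : (frattini ↥W).map W.subtype = Subgroup.upperCentralSeries T 3

/-- Stage B facts (derived subgroup, exponent). -/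
structure FactsB {T : Type u} [Group T] (W : Subgroup T) : Prop where
  comm : (commutator ↥W).map W.subtype = Subgroup.upperCentralSeries T 3
  exp : ∀ z ∈ Subgroup.upperCentralSeries T 3, z ^ 2 = 1
  cardQ : Nat.card (↥W ⧸ commutator ↥W) = 2 ^ 8
  expQ : ∀ x : ↥W ⧸ commutator ↥W, x ^ 2 = 1

/-- Raw facts on `Z₂ ≤ Z₃ ≤ W ≤ A` used in the centre argument
(`W = C_T(Z₃)`, `A = C_T(Z₂)`, `Z₃ = W' = Φ(W)` elementary abelian of order 8). -/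
structure ZFacts {T : Type u} [Group T] (W A Z₂ Z₃ : Subgroup T) : Prop where
  Z3n : Z₃.Normal
  Z2n : Z₂.Normal
  Z23 : Z₂ ≤ Z₃
  Z3W : Z₃ ≤ W
  card3 : Nat.card Z₃ = 8
  card2 : Nat.card Z₂ = 4
  exp : ∀ z ∈ Z₃, z * z = 1
  cenW : ∀ w ∈ W, ∀ z ∈ Z₃, w * z = z * w
  cenA : ∀ a ∈ A, ∀ z ∈ Z₂, a * z = z * a
  notW : ∀ t : T, t ∉ W → ∃ z ∈ Z₃, t * z ≠ z * t
  act : ∀ t : T, ∀ z ∈ Z₃, cg t z ∈ Z₂
  sqW : ∀ p ∈ W, p * p ∈ Z₃
  commW : ∀ p ∈ W, ∀ q ∈ W, p * q * p⁻¹ * q⁻¹ ∈ Z₃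
  cardW : Nat.card W = 2 ^ 11

/-! ## Leaf packages -/

/-- [UCS] orders of `Z₁, Z₂, Z₃`. -/
def PkgUcs : Prop :=
  ∀ {T : Type u} [Group T] [Finite T], IsPGroup 2 T →
    Nat.card ↥(Subgroup.upperCentralSeries T 4) = 16 → 16 < Nat.card T →
    Nat.card ↥(Subgroup.upperCentralSeries T 1) = 2 ∧
    Nat.card ↥(Subgroup.upperCentralSeries T 2) = 4 ∧
    Nat.card ↥(Subgroup.upperCentralSeries T 3) = 8

/-- [NORMZ] a normal subgroup of order `≤ 2^j` of a finite 2-group lies in `Z_j`. -/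
def PkgNormZ : Prop :=
  ∀ {T : Type u} [Group T] [Finite T], IsPGroup 2 T → ∀ (N : Subgroup T), N.Normal →
    ∀ j : ℕ, Nat.card N ≤ 2 ^ j → N ≤ Subgroup.upperCentralSeries T j

/-- [TOWER] the series `W = C_T(Z₃) ≤ X₁ ≤ A = C_T(Z₂) ≤ T`. -/
def PkgTower : Prop :=
  ∀ {T : Type u} [Group T] [Finite T], IsPGroup 2 T →
    Nat.card ↥(Subgroup.upperCentralSeries T 1) = 2 →
    Nat.card ↥(Subgroup.upperCentralSeries T 2) = 4 →
    Nat.card ↥(Subgroup.upperCentralSeries T 3) = 8 →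
    ∃ (X₁ : Subgroup T) (g₁ g₂ g₃ : T),
      Series (Subgroup.centralizer ((Subgroup.upperCentralSeries T 3 : Subgroup T) : Set T)) X₁
        (Subgroup.centralizer ((Subgroup.upperCentralSeries T 2 : Subgroup T) : Set T)) g₁ g₂ g₃ ∧
      (∀ a ∈ Subgroup.centralizer ((Subgroup.upperCentralSeries T 2 : Subgroup T) : Set T),
        ∀ b ∈ Subgroup.centralizer ((Subgroup.upperCentralSeries T 2 : Subgroup T) : Set T),
          a * b * a⁻¹ * b⁻¹ ∈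
            Subgroup.centralizer ((Subgroup.upperCentralSeries T 3 : Subgroup T) : Set T)) ∧
      ((∀ z ∈ Subgroup.upperCentralSeries T 2, z * z = 1) →
        ∀ a ∈ Subgroup.centralizer ((Subgroup.upperCentralSeries T 2 : Subgroup T) : Set T),
          a * a ∈ Subgroup.centralizer ((Subgroup.upperCentralSeries T 3 : Subgroup T) : Set T)) ∧
      (Subgroup.centralizer ((Subgroup.upperCentralSeries T 3 : Subgroup T) : Set T)).index ≤ 8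

/-- [FIXSTEP] one step: `P/Z` elementary abelian, `g` normalizes `P`, `g²` trivial on `P/Z`;
`P' = C_P(g mod Z)`; then `|P| |Z| ≤ |P'|²`, with surjectivity of `cg g` in the equality case. -/
def PkgFixStep : Prop :=
  ∀ {T : Type u} [Group T] [Finite T] (P Z : Subgroup T) (g : T), Z.Normal → Z ≤ P →
    (∀ p ∈ P, p * p ∈ Z) → (∀ p ∈ P, ∀ q ∈ P, p * q * p⁻¹ * q⁻¹ ∈ Z) →
    (∀ p ∈ P, g * p * g⁻¹ ∈ P) → (∀ p ∈ P, cg (g * g) p ∈ Z) →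
    ∃ P' : Subgroup T, (∀ p, p ∈ P' ↔ p ∈ P ∧ cg g p ∈ Z) ∧ (∀ p ∈ P, cg g p ∈ P') ∧
      Nat.card P * Nat.card Z ≤ Nat.card P' ^ 2 ∧
      (Nat.card P * Nat.card Z = Nat.card P' ^ 2 → ∀ q ∈ P', ∃ p ∈ P, (cg g p)⁻¹ * q ∈ Z)

/-- [CHAIN] three steps along a series. -/
def PkgChain : Prop :=
  ∀ {T : Type u} [Group T] [Finite T] (W X₁ X₂ Z : Subgroup T) (g₁ g₂ g₃ : T),
    Series W X₁ X₂ g₁ g₂ g₃ → Z.Normal → Z ≤ W →
    (∀ p ∈ W, p * p ∈ Z) → (∀ p ∈ W, ∀ q ∈ W, p * q * p⁻¹ * q⁻¹ ∈ Z) →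
    ∃ P₁ P₂ P₃ : Subgroup T, Chain W X₂ Z g₁ g₂ g₃ P₁ P₂ P₃

/-- [ELEM] if `Φ(W)` lies in every subgroup of index `≤ 16` then `Φ(W) ≤ W'`. -/
def PkgElem : Prop :=
  ∀ {W : Type u} [Group W] [Finite W], IsPGroup 2 W →
    (∀ U : Subgroup W, U.index ≤ 16 → frattini W ≤ U) → frattini W ≤ commutator W

/-- [NORMCENT] a normal subgroup `N > Z` of a finite 2-group contains `y ∉ Z` central mod `Z`. -/
def PkgNormCent : Prop :=
  ∀ {T : Type u} [Group T] [Finite T], IsPGroup 2 T → ∀ (N Z : Subgroup T), N.Normal → Z.Normal →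
    Z ≤ N → Z ≠ N → ∃ y ∈ N, y ∉ Z ∧ ∀ t : T, cg t y ∈ Z

/-- [COMPL] `K/H` of exponent 2, `H < E ≤ K`: a subgroup `U ≤ K` of index `≤ 2` not containing `E`. -/
def PkgCompl : Prop :=
  ∀ {T : Type u} [Group T] [Finite T] (K H E : Subgroup T), H ≤ E → E ≤ K → H ≠ E →
    (∀ w ∈ K, w * w ∈ H) → (∀ k ∈ K, ∀ h ∈ H, k * h * k⁻¹ ∈ H) →
    ∃ U : Subgroup T, U ≤ K ∧ ¬ E ≤ U ∧ Nat.card K ≤ 2 * Nat.card U

/-- [SQG] for `g ∈ A \ W` with `g² ∈ W` and `u ∈ W`: `(cg g u)² ∈ Z₂`. -/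
def PkgSqG : Prop :=
  ∀ {T : Type u} [Group T] [Finite T] (W A Z₂ Z₃ : Subgroup T), W.Normal → ZFacts W A Z₂ Z₃ →
    ∀ g ∈ A, g ∉ W → g * g ∈ W → ∀ u ∈ W, cg g u * cg g u ∈ Z₂

/-- [DIH] `T/W` is dihedral of order 8. -/
def PkgDih : Prop :=
  ∀ {T : Type u} [Group T] [Finite T], IsPGroup 2 T → ∀ W : Subgroup T,
    W = Subgroup.centralizer ((Subgroup.upperCentralSeries T 3 : Subgroup T) : Set T) →
    FactsA W → (∀ z ∈ Subgroup.upperCentralSeries T 3, z ^ 2 = 1) →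
    ∃ (_ : W.Normal), Nonempty (T ⧸ W ≃* DihedralGroup 4)

/-! ## Mid-level packages -/

/-- [STAGEA] -/
def PkgStageA : Prop :=
  ∀ {T : Type u} [Group T] [Finite T], IsPGroup 2 T → 2 ^ 14 ≤ Nat.card T →
    Nat.card ↥(Subgroup.upperCentralSeries T 4) = 16 → ∀ W : Subgroup T,
    W = Subgroup.centralizer ((Subgroup.upperCentralSeries T 3 : Subgroup T) : Set T) →
    Nat.card ↥(frattini ↥W) ≤ 8 → FactsA W

/-- [STAGEB] -/
def PkgStageB : Prop :=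
  ∀ {T : Type u} [Group T] [Finite T], IsPGroup 2 T → ∀ W : Subgroup T,
    W = Subgroup.centralizer ((Subgroup.upperCentralSeries T 3 : Subgroup T) : Set T) →
    FactsA W → (∀ U : Subgroup ↥W, U.index ≤ 16 → frattini ↥W ≤ U) → FactsB W

/-- [ZFACTS] -/
def PkgZFacts : Prop :=
  ∀ {T : Type u} [Group T] [Finite T], IsPGroup 2 T → ∀ W : Subgroup T,
    W = Subgroup.centralizer ((Subgroup.upperCentralSeries T 3 : Subgroup T) : Set T) →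
    FactsA W → FactsB W →
    ZFacts W (Subgroup.centralizer ((Subgroup.upperCentralSeries T 2 : Subgroup T) : Set T))
      (Subgroup.upperCentralSeries T 2) (Subgroup.upperCentralSeries T 3)

/-- [CENK] the subgroup `K` of order `≥ 2^8` with all squares in `Z₂`. -/
def PkgCenK : Prop :=
  ∀ {T : Type u} [Group T] [Finite T] (W X₁ A Z₂ Z₃ : Subgroup T) (c x t₀ : T)
    (P₁ P₂ P₃ : Subgroup T) (y : T),
    Series W X₁ A c x t₀ → Chain W A Z₃ c x t₀ P₁ P₂ P₃ → ZFacts W A Z₂ Z₃ →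
    x * x ∈ W → c * x * c⁻¹ * x⁻¹ ∈ W →
    Nat.card P₁ = 2 ^ 7 → Nat.card P₂ = 2 ^ 5 →
    y ∈ P₃ → y ∉ Z₃ → (∀ w ∈ W, w * y = y * w) →
    ∃ K : Subgroup T, K ≤ W ∧ Z₃ ≤ K ∧ 2 ^ 8 ≤ Nat.card K ∧ ∀ w ∈ K, w * w ∈ Z₂

/-- [CENTER] -/
def PkgCenter : Prop :=
  ∀ {T : Type u} [Group T] [Finite T], IsPGroup 2 T → ∀ W : Subgroup T,
    W = Subgroup.centralizer ((Subgroup.upperCentralSeries T 3 : Subgroup T) : Set T) →
    FactsA W → FactsB W → (∀ U : Subgroup ↥W, U.index ≤ 16 → frattini ↥W ≤ U) →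
    Nat.card ↥(Subgroup.center ↥W) = 8

/-! ## S3175 -/

/-- The statement of S3174 (as a hypothesis for the S3175 packages). -/
def Stmt3174 : Prop :=
  ∀ {T : Type u} [Group T] [Finite T], IsPGroup 2 T → 2 ^ 14 ≤ Nat.card T →
    Nat.card ↥(Subgroup.upperCentralSeries T 4) = 16 → ∀ W : Subgroup T,
    W = Subgroup.centralizer ((Subgroup.upperCentralSeries T 3 : Subgroup T) : Set T) →
    Nat.card ↥(frattini ↥W) ≤ 8 → (∀ U : Subgroup ↥W, U.index ≤ 16 → frattini ↥W ≤ U) →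
    Nat.card T = 2 ^ 14 ∧
      (commutator ↥W).map W.subtype = Subgroup.upperCentralSeries T 3 ∧
      (frattini ↥W).map W.subtype = Subgroup.upperCentralSeries T 3 ∧
      Nat.card ↥(Subgroup.center ↥W) = 8 ∧
      Nat.card ↥(Subgroup.upperCentralSeries T 3) = 8 ∧
      (∀ z ∈ Subgroup.upperCentralSeries T 3, z ^ 2 = 1) ∧
      (∃ (_ : W.Normal), Nonempty (T ⧸ W ≃* DihedralGroup 4)) ∧
      Nat.card (↥W ⧸ commutator ↥W) = 2 ^ 8 ∧ (∀ x : ↥W ⧸ commutator ↥W, x ^ 2 = 1)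

/-- [ODDAUT] every automorphism of odd order of `T` is trivial. -/
def PkgOddAut : Prop :=
  ∀ {T : Type u} [Group T] [Finite T], IsPGroup 2 T → 2 ^ 14 ≤ Nat.card T →
    Nat.card ↥(Subgroup.upperCentralSeries T 4) = 16 → ∀ W : Subgroup T,
    W = Subgroup.centralizer ((Subgroup.upperCentralSeries T 3 : Subgroup T) : Set T) →
    Nat.card ↥(frattini ↥W) ≤ 8 → (∀ U : Subgroup ↥W, U.index ≤ 16 → frattini ↥W ≤ U) →
    ∀ α : MulAut T, Odd (orderOf α) → α = 1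

/-- [NPC] if `Aut(T)` has no nontrivial element of odd order, `N_G(T)` has a normal 2-complement. -/
def PkgNPC : Prop :=
  ∀ {G : Type u} [Group G] [Finite G] (T : Sylow 2 G),
    (∀ α : MulAut ↥(T : Subgroup G), Odd (orderOf α) → α = 1) →
    Cfsg.HasNormalPComplement 2 ↥(Subgroup.normalizer ((T : Subgroup G) : Set G))

/-- [WC] weak closure of `W` in `T`. -/
def PkgWC : Prop :=
  ∀ {G : Type u} [Group G] [Finite G] (T : Sylow 2 G), 2 ^ 14 ≤ Nat.card ↥(T : Subgroup G) →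
    Nat.card ↥(Subgroup.upperCentralSeries ↥(T : Subgroup G) 4) = 16 →
    ∀ W : Subgroup ↥(T : Subgroup G),
    W = Subgroup.centralizer ((Subgroup.upperCentralSeries ↥(T : Subgroup G) 3 :
      Subgroup ↥(T : Subgroup G)) : Set ↥(T : Subgroup G)) →
    Nat.card ↥(frattini ↥W) ≤ 8 → (∀ U : Subgroup ↥W, U.index ≤ 16 → frattini ↥W ≤ U) →
    Cfsg.IsWeaklyClosed (W.map (T : Subgroup G).subtype) (T : Subgroup G)

end Cfsg.Agent.Lib.Helper49.RUW
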