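import Cfsg.Agent.Lib.Helper49.RUW.Defs

/-!
# Project RUW: assembly of S3174 and S3175 from the packages
-/

set_option autoImplicit false

namespace Cfsg.Agent.Lib.Helper49.RUW

universe u

/-- S3174 from the four top packages. -/
theorem s3174_of (hA : PkgStageA.{u}) (hB : PkgStageB.{u}) (hC : PkgCenter.{u})
    (hD : PkgDih.{u}) : Stmt3174.{u} := by
  intro T _ _ hT ha hb W hW hc hd
  have fA := hA hT ha hb W hW hc
  have fB := hB hT W hW fA hd
  exact ⟨fA.cardT, fB.comm, fA.frat, hC hT W hW fA fB hd, fA.c3, fB.exp,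
    hD hT W hW fA fB.exp, fB.cardQ, fB.expQ⟩

/-- S3175 from the packages. -/
theorem s3175_of (hO : PkgOddAut.{u}) (hN : PkgNPC.{u}) (hWC : PkgWC.{u})
    {G : Type u} [Group G] [Finite G]
    (T : Sylow 2 G) (ha : 2 ^ 14 ≤ Nat.card ↥(T : Subgroup G))
    (hb : Nat.card ↥(Subgroup.upperCentralSeries ↥(T : Subgroup G) 4) = 16)
    (W : Subgroup ↥(T : Subgroup G))
    (hW : W = Subgroup.centralizer ((Subgroup.upperCentralSeries ↥(T : Subgroup G) 3 :
      Subgroup ↥(T : Subgroup G)) : Set ↥(T : Subgroup G)))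
    (hc : Nat.card ↥(frattini ↥W) ≤ 8)
    (hd : ∀ U : Subgroup ↥W, U.index ≤ 16 → frattini ↥W ≤ U) :
    Cfsg.HasNormalPComplement 2 ↥(Subgroup.normalizer ((T : Subgroup G) : Set G)) ∧
      Cfsg.IsWeaklyClosed (W.map (T : Subgroup G).subtype) (T : Subgroup G) :=
  ⟨hN T (hO T.isPGroup' ha hb W hW hc hd), hWC T ha hb W hW hc hd⟩

end Cfsg.Agent.Lib.Helper49.RUW
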